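import Cfsg.Agent.H209.IF.Defs

/-!
# S5719, engine A (helper680): ENG0, ENG1, ENG9
-/

set_option autoImplicit false
set_option linter.unusedSectionVars false

namespace Cfsg.Agent.H680.Fxy

open MulAction Subgroup Cfsg.Agent.H284 Cfsg.Agent.H209.Fxy

variable {T : Type*} [Group T] [Finite T] {A : Subgroup T} {Γ : Subgroup (MulAut T)}

/-- ENG0. `N_T(K) ≤ A` for `1 ≠ K ≤ A` invariant under `Γ`; in particular `N_T(A) = A`, and `C_T(K) ≤ A`. -/
theorem IF.norm [IsSimpleGroup T] (h : IF A Γ) {K : Subgroup T} (hK : K ≤ A) (hinv : ∀ σ ∈ Γ, ∀ k ∈ K, σ k ∈ K)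
    (hne : K ≠ ⊥) {x : T} (hx : ∀ k ∈ K, x * k * x⁻¹ ∈ K) : x ∈ A := by
  have hxN : ∀ y : T, (∀ k ∈ K, y * k * y⁻¹ ∈ K) ↔ y ∈ normalizer (K : Set T) := by
    intro y
    constructor
    · intro hy
      have hfin : (K : Set T).Finite := Set.toFinite _
      have hmap : K.map (MulAut.conj y).toMonoidHom = K := by
        apply Subgroup.eq_of_le_of_card_ge
        · rintro _ ⟨k, hk, rfl⟩
          exact hy k hk
        · rw [Nat.card_congr (K.equivMapOfInjective (MulAut.conj y).toMonoidHom (MulAut.conj y).injective).toEquiv]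
      rw [mem_normalizer_iff]
      intro z
      constructor
      · exact hy z
      · intro hz
        rw [← hmap] at hz
        obtain ⟨k, hk, hk'⟩ := hz
        have h2 : y * k * y⁻¹ = y * z * y⁻¹ := hk'
        have h3 : k = z := by
          have := mul_right_cancel h2
          exact mul_left_cancel this
        rw [← h3]
        exact hk
    · intro hy k hk
      exact (mem_normalizer_iff.1 hy k).1 hk
  have hAN : A ≤ normalizer (K : Set T) := by
    intro a ha
    rw [← hxN]
    intro k hk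
    exact hinv (MulAut.conj a) ((h.conj a).2 ha) k hk
  rcases h.max (normalizer (K : Set T)) hAN (by
    intro σ hσ b hb
    rw [← hxN] at hb ⊢
    intro k hk
    have h1 : σ⁻¹ k ∈ K := hinv σ⁻¹ (Γ.inv_mem hσ) k hk
    have h2 := hinv σ hσ _ (hb _ h1)
    rw [map_mul, map_mul, map_inv] at h2
    rwa [MulAut.apply_inv_self] at h2) with h1 | h1
  · rw [← h1, ← hxN]
    exact hx
  · exfalso
    have hn : K.Normal := Subgroup.normalizer_eq_top_iff.1 h1
    rcases hn.eq_bot_or_eq_top with h2 | h2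
    · exact hne h2
    · rw [h2] at hK
      exact h.ne_top (top_le_iff.1 hK)

theorem relIndex_le (A : Subgroup T) (σ : MulAut T) {B : Subgroup T}
    (hB : ∀ b ∈ B, σ b = b) : A.relIndex B ≤ fx A σ := by
  rw [Subgroup.relIndex, Subgroup.index, fx]
  rw [← Nat.card_coe_set_eq]
  have : Finite (fixSet A σ) := Set.toFinite _
  let f : B ⧸ A.subgroupOf B → fixSet A σ := Quotient.lift (fun b : B => (⟨((b : T) : T ⧸ A), (b : T), rfl, by
    rw [hB b b.2, inv_mul_cancel]; exact A.one_mem⟩ : fixSet A σ)) (by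
      intro a b hab
      have h1 : a⁻¹ * b ∈ A.subgroupOf B := QuotientGroup.leftRel_apply.1 hab
      apply Subtype.ext
      exact QuotientGroup.eq.2 (Subgroup.mem_subgroupOf.1 h1))
  apply Nat.card_le_card_of_injective f
  intro a b hab
  induction a using QuotientGroup.induction_on with
  | H a =>
    induction b using QuotientGroup.induction_on with
    | H b =>
      have h1 : ((a : T) : T ⧸ A) = ((b : T) : T ⧸ A) := congrArg Subtype.val hab
      rw [QuotientGroup.eq] at h1 ⊢
      exact Subgroup.mem_subgroupOf.2 h1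

/-- ENG1. A subgroup `B` centralised by `σ` acts on the fixed points of `σ`. -/
theorem IF.E1 (h : IF A Γ) {σ : MulAut T} (hσ : σ ∈ Γ) (h2 : orderOf σ = 2) {B : Subgroup T}
    (hB : ∀ b ∈ B, σ b = b) : A.relIndex B ≤ fx A σ ∧ A.relIndex B ^ 6 < A.index := by
  have h1 := relIndex_le A σ hB
  exact ⟨h1, (Nat.pow_le_pow_left h1 6).trans_lt (h.small σ hσ h2)⟩

/-- ENG9. A subgroup `B` of `T` of even order normalised... : a 2-subgroup `B ≤ C_T(σ)` with `B ∩ A = 1` has
`|B|^6 < n`; in general `|B|^6 < n |B ∩ A|^6`. -/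
theorem IF.semireg (h : IF A Γ) {σ : MulAut T} (hσ : σ ∈ Γ) (h2 : orderOf σ = 2) {B : Subgroup T}
    (hB : ∀ b ∈ B, σ b = b) : Nat.card B ^ 6 < A.index * Nat.card (A ⊓ B : Subgroup T) ^ 6 := by
  have h1 := (IF.E1 h hσ h2 hB).2
  have h3 : Nat.card B = A.relIndex B * Nat.card (A ⊓ B : Subgroup T) := by
    rw [Subgroup.relIndex, ← Subgroup.index_mul_card (A.subgroupOf B)]
    congr 1
    rw [← Subgroup.inf_subgroupOf_right, Nat.card_congr (Subgroup.subgroupOfEquivOfLe (inf_le_right : A ⊓ B ≤ B)).toEquiv]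
  rw [h3, mul_pow]
  exact Nat.mul_lt_mul_of_pos_right h1 (pow_pos Nat.card_pos 6)

end Cfsg.Agent.H680.Fxy
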